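import Cfsg.Agent.Block.BDAb
import Cfsg.Agent.KKL.GrpB

/-! Blocks with elementary abelian defect group of order eight: reduction to transitive fusion. -/

set_option autoImplicit false

open Cfsg Cfsg.Lib.Char Cfsg.Lib.Block Cfsg.Lib.Block.BD Cfsg.Lib.Block.AG Subgroup

namespace Cfsg.Lib.R16

universe u

variable {M : Ideal AlgInt} {P : Type u} [Group P]

theorem K8.nf_mul (b : BD 2 M P) (hc : ∀ x y : P, x * y = y * x) (v : P) :
    b.nf v * Nat.card (Sb b.aut v) = Nat.card b.aut := by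
  have e1 : b.nf v = Nat.card (MulAction.orbit b.aut v) :=
    Nat.card_congr (Equiv.subtypeEquivRight fun x => (ef_iff hc).trans
      ⟨fun ⟨a, ha, e⟩ => ⟨⟨a, ha⟩, e⟩, fun ⟨a, e⟩ => ⟨a.1, a.2, e⟩⟩)
  have e2 : Nat.card (Sb b.aut v) = Nat.card (MulAction.stabilizer b.aut v) :=
    Nat.card_congr ⟨fun a => ⟨⟨a.1, a.2.1⟩, a.2.2⟩, fun a => ⟨a.1.1, a.1.2, a.2⟩, fun _ => rfl,
      fun _ => rfl⟩
  rw [e1, e2, ← Nat.card_prod]
  exact Nat.card_congr (MulAction.orbitProdStabilizerEquivGroup b.aut v)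

theorem K8.wt_eq (b : BD 2 M P) (hc : ∀ x y : P, x * y = y * x) (h : Nat.card b.aut ≤ 3) (v : P) :
    b.wt v * Nat.card b.aut = Nat.card (Sb b.aut v) ^ 2 := by
  have := b.finite
  have h1 := Nat.le_of_dvd Nat.card_pos (card_Sb_dvd b.aut v)
  have h2 : (b.nf v : ℚ) ≠ 0 := Nat.cast_ne_zero.2 (nf_pos v).ne'
  rw [wt, rk_eq_of_le_three hc (h1.trans h), ← K8.nf_mul b hc v]
  push_cast
  field_simp

theorem k8 (c : BD 2 M P) (h8 : Nat.card P = 8) (he : ∀ x : P, x * x = 1)
    (H : ∀ u : P, u ≠ 1 → (∀ v, v ≠ 1 → c.ef u v) → c.k = 8) : c.k = 8 := by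
  classical
  have := c.finite
  have := Fintype.ofFinite P
  have hi : ∀ x : P, x⁻¹ = x := fun x => inv_eq_of_mul_eq_one_right (he x)
  have hc : ∀ x y : P, x * y = y * x := fun x y => by rw [← hi (x * y), mul_inv_rev, hi, hi]
  have hk := k_eq_sum (b := c)
  have c8 : Fintype.card P = 8 := by rw [← Nat.card_eq_fintype_card, h8]
  rcases KKL.grpB h8 he c.aut (c.not_dvd_card_aut hc) with h | ⟨h, hf⟩ | ⟨-, h⟩
  · rw [Finset.sum_congr rfl (g := fun _ => 1) fun v _ => ?_] at hk
    · simp only [Finset.sum_const, Finset.card_univ, c8, nsmul_eq_mul] at hk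
      exact_mod_cast hk
    · have h1 := K8.wt_eq c hc (by omega) v
      have h2 := card_Sb_dvd c.aut v
      rw [h] at h1 h2
      rw [Nat.dvd_one.1 h2] at h1
      simpa using h1
  · rw [Finset.sum_congr rfl (g := fun v => if ∀ a ∈ c.aut, a v = v then 3 else 1 / 3)
      fun v _ => ?_] at hk
    · rw [Nat.card_eq_fintype_card, Fintype.card_subtype] at hf
      have h2 := Finset.card_filter_add_card_filter_not (s := Finset.univ)
        (fun v : P => ∀ a ∈ c.aut, a v = v)
      rw [hf, Finset.card_univ, c8] at h2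
      rw [Finset.sum_ite, Finset.sum_const, Finset.sum_const, hf,
        show (Finset.univ.filter fun v : P => ¬ ∀ a ∈ c.aut, a v = v).card = 6 by omega] at hk
      norm_num at hk
      exact_mod_cast hk
    · have h1 := K8.wt_eq c hc h.le v
      rw [h] at h1
      split_ifs with hv
      · rw [show Sb c.aut v = c.aut from inf_eq_left.2 hv, h] at h1
        push_cast at h1
        linarith
      · rcases (Nat.dvd_prime Nat.prime_three).1 (h ▸ card_Sb_dvd c.aut v) with e | e
        · rw [e] at h1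
          push_cast at h1
          linarith
        · exact absurd (fun a ha => ((eq_of_le_of_card_ge (inf_le_left : Sb c.aut v ≤ _)
            (by rw [e, h])).ge ha).2) hv
  · have : Nontrivial P := Finite.one_lt_card_iff_nontrivial.1 (by omega)
    obtain ⟨u, hu⟩ := exists_ne (1 : P)
    exact H u hu fun v hv => (ef_iff hc).2 (h u v hu hv)

end Cfsg.Lib.R16
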