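import Cfsg.Agent.Block.BDGrp

/-!
Odd-order automorphism groups of an elementary abelian group of order sixteen.
-/

set_option autoImplicit false

open Cfsg Subgroup

namespace Cfsg.Lib.R16

open Cfsg.Lib.Block Cfsg.Lib.Block.AG

variable {P : Type*} [Group P] [Finite P]

omit [Finite P] in
theorem grp_comm (he : ∀ x : P, x * x = 1) (x y : P) : x * y = y * x := by
  have h : ∀ z : P, z⁻¹ = z := fun z => inv_eq_of_mul_eq_one_right (he z)
  rw [← h (x * y), mul_inv_rev, h, h]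

theorem grp_fx (h16 : Nat.card P = 16) {a : MulAut P} {q : ℕ} (hq : q.Prime) (oa : orderOf a = q) :
    Nat.card (Fx a) ∣ 32 ∧ Nat.card (Fx a) % q = 16 % q ∧ Nat.card (Fx a) < 16 := by
  have h2 := card_Fx_modEq hq oa (V := ⊤) fun _ _ => trivial
  have h3 := card_lt (V := ⊤) (W := Fx a) fun h0 =>
    ne_one_of_orderOf hq oa (MulEquiv.ext fun y => h0 (mem_top y))
  rw [inf_top_eq, card_top, h16] at h2 h3
  exact ⟨(h16 ▸ card_subgroup_dvd_card (Fx a)).trans (by decide), h2, h3⟩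

theorem grp_dvd (h16 : Nat.card P = 16) (E : Subgroup (MulAut P)) (hE : ¬ 2 ∣ Nat.card E) :
    Nat.card E ∣ 315 := by
  have : Fact (Nat.Prime 2) := ⟨Nat.prime_two⟩
  have hP : IsPGroup 2 P := IsPGroup.of_card (n := 4) h16
  exact (card_dvd_prod hP (m := 4) (by
    rw [show 2 ^ 4 = 16 from rfl, ← h16]; exact index_dvd_card _) hE).trans (by decide)

theorem grp_seven (h16 : Nat.card P = 16) (E : Subgroup (MulAut P)) (hE : ¬ 2 ∣ Nat.card E)
    (h7 : 7 ∣ Nat.card E) : ∃ x : P, x ≠ 1 ∧ ∀ a ∈ E, a x = x := by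
  have p7 : Nat.Prime 7 := by decide
  have h1 := grp_dvd h16 E hE
  have h3 : ¬ 5 ∣ Nat.card E := fun h3 => by
    obtain ⟨H, hH, h4, h5⟩ := FT.Hall_exists (M := E) {5, 7}
      (FT.odd_order_solvable (Nat.odd_iff.2 (by omega)))
    have h6 : ∀ r, r.Prime → r ∈ ({5, 7} : Set ℕ) → r ∣ Nat.card E → ∃ a ∈ H, orderOf a = r :=
      fun r hr h6 h8 => exists_prime_mem H hr ((hr.dvd_mul.1 (by
        rwa [← Nat.card_congr (subgroupOfEquivOfLe hH).toEquiv, relIndex, card_mul_index])).resolve_right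
          (h5 r hr h6))
    obtain ⟨a, ha, oa⟩ := h6 7 p7 (by simp) h7
    obtain ⟨c, hc', oc⟩ := h6 5 Nat.prime_five (by simp) h3
    have h8 : Nat.card H ∣ 7 * 5 := by
      refine Nat.Coprime.dvd_of_dvd_mul_left (m := 9) (Nat.coprime_of_dvd fun r hr h8 h9 => ?_)
        ((card_dvd_of_le hH).trans (h1.trans (by decide)))
      rcases h4 r hr h8 with rfl | rfl <;> omega
    have h9 : Commute a c :=
      (commute_of_conj_mem p7 oa (conj_mem_of_card p7 (m := 5) h8 (by decide) (by decide)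
        ha hc' oa) (by rw [oc]; decide)).symm
    obtain ⟨a1, a2, a3⟩ := grp_fx h16 p7 oa
    obtain ⟨c1, c2, c3⟩ := grp_fx h16 Nat.prime_five oc
    have h10 := card_Fx_modEq Nat.prime_five oc (V := Fx a) fun x hx => Fx_inv h9 hx
    have h11 := card_le_of_le (inf_le_left (a := Fx c) (b := Fx a))
    have h12 : 0 < Nat.card (Fx c ⊓ Fx a : Subgroup P) := Nat.card_pos
    have h13 := dvd_32 a1
    have h14 := dvd_32 c1
    rw [Nat.ModEq] at h10
    omega
  have h4 : Nat.card E ∣ 7 * 9 := Nat.Coprime.dvd_of_dvd_mul_left (m := 5)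
    ((Nat.Prime.coprime_iff_not_dvd Nat.prime_five).2 h3).symm h1
  obtain ⟨a, ha, oa⟩ := exists_prime_mem _ p7 h7
  obtain ⟨a1, a2, a3⟩ := grp_fx h16 p7 oa
  have h2 : Nat.card (Fx a) = 2 := by have := dvd_32 a1; omega
  obtain ⟨x, hx, hu⟩ := (Nat.card_eq_two_iff' (1 : Fx a)).1 h2
  have hx1 : (x : P) ≠ 1 := fun h => hx (Subtype.ext h)
  refine ⟨x, hx1, fun g hg => ?_⟩
  have h5 := conj_mem_of_card p7 (m := 9) h4 (by decide) (by decide) ha (inv_mem hg) oa
  have h6 : g x ∈ Fx a := by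
    have h := zpow_fix (mem_Fx.1 x.2) h5
    rw [inv_inv, MulAut.mul_apply, MulAut.mul_apply] at h
    have h' := congrArg g h
    rw [← MulAut.mul_apply, mul_inv_cancel] at h'
    exact h'
  exact congrArg Subtype.val (hu ⟨g x, h6⟩ fun h => hx1 (by simpa using congrArg Subtype.val h))

theorem grp_free (h16 : Nat.card P = 16) {E : Subgroup (MulAut P)} (hf : FreeAut E) :
    Nat.card E ∣ 15 := by
  have := free_dvd (E := E) ({1} : Set P)ᶜ (fun a _ x hx => by simpa using hx)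
    fun a ha x hx h => hf a ha x hx h
  rwa [Set.ncard_compl, h16, Set.ncard_singleton] at this

/-- The trichotomy; in the last case `AG.grid_nine` applies. -/
theorem tri (h16 : Nat.card P = 16) (E : Subgroup (MulAut P)) (hE : ¬ 2 ∣ Nat.card E) :
    (∃ x : P, x ≠ 1 ∧ ∀ a ∈ E, a x = x) ∨
      ((Nat.card E = 3 ∨ Nat.card E = 5 ∨ Nat.card E = 15) ∧ FreeAut E) ∨
      (Nat.card E = 9 ∧ ¬ FreeAut E) := by
  by_cases h7 : 7 ∣ Nat.card E
  · exact .inl (grp_seven h16 E hE h7)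
  have h1 : Nat.card E ∣ 45 := Nat.Coprime.dvd_of_dvd_mul_left (m := 7)
    ((Nat.Prime.coprime_iff_not_dvd (by decide)).2 h7).symm (grp_dvd h16 E hE)
  by_cases hf : FreeAut E
  · have h2 := grp_free h16 hf
    have h3 := Nat.le_of_dvd (by decide) h2
    by_cases h4 : Nat.card E = 1
    · have : Nontrivial P := Finite.one_lt_card_iff_nontrivial.1 (by omega)
      obtain ⟨x, hx⟩ := exists_ne (1 : P)
      refine .inl ⟨x, hx, fun a ha => ?_⟩
      rw [card_eq_one.1 h4, mem_bot] at ha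
      rw [ha]; rfl
    · refine .inr (.inl ⟨?_, hf⟩)
      generalize Nat.card E = n at *
      interval_cases n <;> omega
  have h5 : ¬ 5 ∣ Nat.card E := fun h => hf (free_of_five (h16 ▸ dvd_rfl) h1 h)
  have h6 : Nat.card E ∣ 9 := Nat.Coprime.dvd_of_dvd_mul_left (m := 5)
    ((Nat.Prime.coprime_iff_not_dvd Nat.prime_five).2 h5).symm h1
  by_cases h9 : Nat.card E = 9
  · exact .inr (.inr ⟨h9, hf⟩)
  simp only [FreeAut, not_forall] at hf
  obtain ⟨t, ht, v, hv1, h2, h3⟩ := hf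
  refine .inl ⟨v, hv1, fun a ha => zpow_fix h2 ?_⟩
  have h8 : Nat.card (zpowers t) ∣ Nat.card E := card_dvd_of_le (zpowers_le.2 ht)
  have h10 := one_lt_card_iff_ne_bot (zpowers t) |>.2 (by simpa using h3)
  have h11 := dvd_27 (h6.trans (by decide))
  have h12 := Nat.le_of_dvd Nat.card_pos h8
  have h13 := dvd_27 (h8.trans (h6.trans (by decide)))
  have h14 := Nat.le_of_dvd (by decide) h6
  exact (eq_of_le_of_card_ge (zpowers_le.2 ht) (by omega)).symm ▸ ha

end Cfsg.Lib.R16
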