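import Cfsg.Agent.KKL.Red
import Cfsg.Agent.R16.Tri

/-!
Elementary abelian defect group of order `16` with a nontrivial element fixed by the inertial group.
-/

set_option autoImplicit false

open Cfsg Cfsg.Lib.Char Cfsg.Lib.Block Subgroup

namespace Cfsg.Lib.R16

universe u
variable {M : Ideal AlgInt} {P : Type u} [Group P]

theorem fixed (kkl : ∀ {S : Type u} [Group S] (c : BD 2 M S), Nat.card S = 8 →
      (∀ x : S, x * x = 1) → c.k = 8)
    (b : BD 2 M P) (h16 : Nat.card P = 16) (he : ∀ x : P, x * x = 1) {u : P} (hu : u ≠ 1)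
    (hf : ∀ a ∈ b.aut, a u = u) : ∀ χ ∈ b.B, blockHeight 2 b.B (χ : b.G → ℂ) = 0 := by
  have h1 : orderOf u = 2 := orderOf_eq_prime (by rw [sq, he]) hu
  have h2 := (zpowers u).index_mul_card
  rw [Nat.card_zpowers, h1, h16] at h2
  exact (KKL.red_bd kkl b (grp_comm he) hf (by omega) fun z => he z ▸ one_mem _).2.1

theorem sevenF (kkl : ∀ {S : Type u} [Group S] (c : BD 2 M S), Nat.card S = 8 →
      (∀ x : S, x * x = 1) → c.k = 8)
    (b : BD 2 M P) (h16 : Nat.card P = 16) (he : ∀ x : P, x * x = 1)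
    (h : 7 ∣ Nat.card b.aut) : ∀ χ ∈ b.B, blockHeight 2 b.B (χ : b.G → ℂ) = 0 := by
  have := b.finite
  obtain ⟨u, hu, hf⟩ := grp_seven h16 b.aut (b.not_dvd_card_aut (grp_comm he)) h
  exact fixed kkl b h16 he hu hf

end Cfsg.Lib.R16
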