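import Cfsg.Agent.Block.BDAb

/-!
Blocks with abelian defect group and free inertial action whose Cartan lattice is even have all
their characters of height zero.
-/

set_option autoImplicit false

open scoped MonoidAlgebra ComplexConjugate
open Cfsg Cfsg.Lib.Char Cfsg.Lib.Block Cfsg.Lib.Block.Pair Cfsg.Lib.Block.Star Cfsg.Lib.Block.Tame
  Subgroup

namespace Cfsg.Lib.R16

universe u

theorem Free0.par {c d z n k : ℤ} (hc : c ≠ 0) (hz : Odd z)
    (h : ∀ α β : ℤ, α * c + β * d = 0 → Even (α + β * z) ∧ Even (α * n + β * k)) :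
    (Odd n ↔ Odd k) := by
  have hg : 0 < Int.gcd c d := Int.gcd_pos_of_ne_zero_left d hc
  obtain ⟨g, c', d', -, h1, rfl, rfl⟩ := Int.exists_gcd_one' hg
  obtain ⟨h2, h3⟩ := h d' (-c') (by ring)
  have h4 : ¬ (Even c' ∧ Even d') := fun ⟨h5, h6⟩ => by
    have := Int.dvd_gcd (even_iff_two_dvd.1 h5) (even_iff_two_dvd.1 h6)
    rw [h1] at this
    norm_num at this
  have hz' := Int.not_even_iff_odd.2 hz
  simp only [Int.even_add, Int.even_mul, even_neg] at h2 h3
  rw [← Int.not_even_iff_odd, ← Int.not_even_iff_odd]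
  tauto

variable {G : Type u} [Group G] [Fintype G] {M : Ideal AlgInt}
  {B : Set (IrrCharacter G)} {P : Subgroup G} {e : (kM M)[G]}

theorem Free0.main (h : AbFree 2 M B P e) (hP : P ≠ ⊥)
    (hev : ∀ x : IrrCharacter G → ℤ,
      (∀ v : P, v ≠ 1 → sr 2 M P e v (∑ χ ∈ irrFin B, (x χ : ℂ) • (χ : G → ℂ)) = 0) →
      (∀ g, 2 ∣ orderOf g → (∑ χ ∈ irrFin B, (x χ : ℂ) • (χ : G → ℂ)) g = 0) →
      Even (∑ χ ∈ irrFin B, x χ)) :
    ∀ χ ∈ B, blockHeight 2 B (χ : G → ℂ) = 0 := by
  classical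
  have := Fintype.ofFinite P
  have := Fintype.ofFinite (P →* ℂˣ)
  have := charP_kM h.hM
  obtain ⟨hne, β', h1, h2, h3, h4, h5, h6⟩ := h.gram_data hP
  obtain ⟨m, ⟨σ⟩⟩ := Finite.exists_equiv_fin (Quotient (AbFree.orbS P e))
  have h7 := h.card_quot
  rw [Nat.card_eq_of_equiv_fin σ] at h7
  have : Nonempty (Fin m) := hne.map σ
  set n := Nat.card (autT P e)
  let β := fun i => β' (σ.symm i)
  have h5' : ∀ i j, classInner (β i) (β j) = n + if i = j then 1 else 0 := fun i j => by
    simp only [β, h5, σ.symm.injective.eq_iff]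
  obtain ⟨ν, ε, a, hν, hS, hε, ha⟩ := exists_except (isPBlock_nonempty h.hM h.hB) β
    (fun _ => h2 _) (fun _ => h3 _) (fun _ => h4 _) h5'
  obtain ⟨i₀⟩ := this
  have g1 : ∀ (x : IrrCharacter G → ℤ) i, ip (irrFin B) x (ic (β i)) =
      ∑ s ∈ irrFin B, x s * a s + ε * x (ν i) := fun x i => by
    simp [ip, ha, mul_add, Finset.sum_add_distrib, hS, mul_comm ε]
  have g2 : ∀ i j, ∑ s ∈ irrFin B, a s ^ 2 + ε * (a (ν i) + a (ν j)) = n := fun i j => by
    have g2 := (ip_ic (h2 _) (h3 _) (h2 _)).trans (h5' i j)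
    rw [g1, ← ip, ip_comm, g1, ha] at g2
    simp only [hν.eq_iff, ← sq] at g2
    apply Int.cast_injective (α := ℂ)
    have g3 := congrArg (Int.cast (R := ℂ)) hε
    push_cast at g2 g3 ⊢
    split_ifs at g2
    · linear_combination g2 - g3
    · linear_combination g2
  have g3 : ∀ i, a (ν i) = a (ν i₀) := fun i => mul_left_cancel₀ (left_ne_zero_of_mul_eq_one hε)
    (by linear_combination g2 i i₀ - g2 i₀ i₀)
  have g4 : ∀ χ ∈ irrFin B, ∃ i, ic (β i) χ ≠ 0 := fun χ hχ => by
    obtain ⟨i, hi⟩ := h6 χ (mem_irrFin.1 hχ)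
    refine ⟨σ i, fun h0 => hi ?_⟩
    simp only [β, σ.symm_apply_apply] at h0
    rw [← ic_cast (h2 i), h0, Int.cast_zero]
  -- the defect is positive and `m` is odd
  have hd : blockDefect 2 B ≠ 0 := fun h0 => hP (card_eq_one.1 (by rw [h.card_P, h0, pow_zero]))
  have hm : Odd (m : ℤ) := by
    have e1 : Even (m * n + 1) := by
      rw [h7, h.card_P]
      exact (Nat.even_pow.2 ⟨even_two, hd⟩)
    rw [Nat.even_add_one, Nat.not_even_iff_odd, Nat.odd_mul] at e1
    exact_mod_cast e1.1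
  obtain ⟨ψ, hψ, hψ0⟩ := Ht.exists_blockHeight_eq_zero 2 (isPBlock_nonempty h.hM h.hB)
  have hca : ∀ χ ∈ B, (Odd (ca 2 B ψ χ) ↔ blockHeight 2 B (χ : G → ℂ) = 0) := fun χ hχ => by
    rw [← Int.not_even_iff_odd, even_iff_two_dvd]
    constructor
    · intro h0
      by_contra h9
      exact h0 ((dvd_pow_self _ h9).trans (by
        exact_mod_cast pow_height_dvd_ca Nat.prime_two ψ hχ))
    · intro h0
      have := not_pow_height_succ_dvd_ca h.hM h.hB hψ hχ hψ0
      rw [h0] at this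
      simpa using this
  -- the exceptional characters have the same height
  have hdeg : ∀ i, blockHeight 2 B (ν i : G → ℂ) = blockHeight 2 B (ν i₀ : G → ℂ) := fun i => by
    have e1 : ∀ j, (∑ s ∈ irrFin B, (a s : ℂ) * (s : G → ℂ) 1) + ε * (ν j : G → ℂ) 1 = 0 :=
      fun j => by
        have e2 := congrFun (eq_sum_ic (h2 (σ.symm j)) (h3 _)) 1
        rw [h4] at e2
        have e3 : ∀ s, ic (β' (σ.symm j)) s = _ := ha j
        simp only [Finset.sum_apply, Pi.smul_apply, smul_eq_mul, e3] at e2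
        push_cast at e2
        simp only [add_mul, Finset.sum_add_distrib, ite_mul, zero_mul] at e2
        rw [e2]
        congr 1
        rw [Finset.sum_eq_single (ν j) (fun s _ hs => if_neg hs.symm) (fun h9 => absurd (hS j) h9),
          if_pos rfl]
    have e4 : (ε : ℂ) ≠ 0 := Int.cast_ne_zero.2 (left_ne_zero_of_mul_eq_one hε)
    have e5 : (ν i : G → ℂ) 1 = (ν i₀ : G → ℂ) 1 :=
      mul_left_cancel₀ e4 (by linear_combination e1 i - e1 i₀)
    simp only [blockHeight, charDegree, e5]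
  have hsum : Odd (∑ i, ca 2 B ψ (ν i)) ↔ blockHeight 2 B (ν i₀ : G → ℂ) = 0 := by
    by_cases h0 : blockHeight 2 B (ν i₀ : G → ℂ) = 0
    · simp only [h0, iff_true]
      have e1 : ∀ i, Odd (ca 2 B ψ (ν i)) := fun i =>
        (hca _ (mem_irrFin.1 (hS i))).2 ((hdeg i).trans h0)
      have e2 : Even (∑ i, (ca 2 B ψ (ν i) - 1)) :=
        Finset.even_sum _ fun i _ => (e1 i).sub_odd odd_one
      rw [Finset.sum_sub_distrib, Finset.sum_const, Finset.card_fin, nsmul_eq_mul, mul_one] at e2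
      have := e2.add_odd hm
      rwa [sub_add_cancel] at this
    · simp only [h0, iff_false, Int.not_odd_iff_even]
      exact Finset.even_sum _ fun i _ => Int.not_odd_iff_even.1 fun h9 =>
        h0 ((hdeg i).symm.trans ((hca _ (mem_irrFin.1 (hS i))).1 h9))
  have key : ∀ χ ∈ B, (blockHeight 2 B (χ : G → ℂ) = 0 ↔ blockHeight 2 B (ν i₀ : G → ℂ) = 0) := by
    intro χ hχ
    by_cases hx : ∃ i, ν i = χ
    · obtain ⟨i, rfl⟩ := hx
      rw [hdeg i]
    have hχ' := mem_irrFin.2 hχ
    have ha0 : a χ ≠ 0 := fun h9 => by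
      obtain ⟨i, hi⟩ := g4 χ hχ'
      exact hi (by rw [ha, if_neg fun h10 => hx ⟨i, h10⟩, h9, add_zero])
    rw [← hca χ hχ, ← hsum]
    refine Free0.par (d := m * a (ν i₀) + ε) ha0 hm fun s t hst => ?_
    let x : IrrCharacter G → ℤ := fun ξ => (if χ = ξ then s else 0) + ∑ i, if ν i = ξ then t else 0
    have hx1 : ∀ f : IrrCharacter G → ℤ, ∑ ξ ∈ irrFin B, x ξ * f ξ = s * f χ + t * ∑ i, f (ν i) := by
      intro f
      simp only [x, add_mul, Finset.sum_add_distrib, ite_mul, zero_mul, Finset.sum_mul]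
      rw [Finset.sum_ite_eq, if_pos hχ', Finset.sum_comm, Finset.mul_sum]
      congr 1
      exact Finset.sum_congr rfl fun i _ => by rw [Finset.sum_ite_eq, if_pos (hS i)]
    set θ : G → ℂ := ∑ ξ ∈ irrFin B, (x ξ : ℂ) • (ξ : G → ℂ) with hθ
    have t2 : InSpan B θ := inSpan_sum _ fun ξ hξ => (inSpan_irr (mem_irrFin.1 hξ)).smul _
    have g8 : ∀ j, classInner θ (β j) = 0 := fun j => by
      have e1 : ∑ ξ ∈ irrFin B, x ξ * ic (β j) ξ = 0 := by
        rw [hx1, ha, if_neg fun h10 => hx ⟨j, h10⟩, add_zero, ← hst]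
        congr 2
        simp only [ha, g3, Finset.sum_add_distrib, Finset.sum_const, Finset.card_fin, nsmul_eq_mul,
          hν.eq_iff]
        simp
      have e2 := congrArg (Int.cast (R := ℂ)) e1
      push_cast at e2
      rw [hθ, classInner_sum_left, ← e2]
      refine Finset.sum_congr rfl fun ξ _ => ?_
      rw [classInner_smul_left, ic_cast (h2 _),
        (h2 _).classInner_comm ξ.2.isCharacter.isGeneralizedCharacter]
    have g9 : ∀ v : P, v ≠ 1 → sr 2 M P e v θ = 0 := fun v hv => by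
      rw [← cA_eq_zero_iff h.hM h.max v.2 (h.rank hv)]
      rw [cA_eq_sd, h.sd_eq_sum t2.isClassFunction hv, Finset.sum_eq_zero fun l _ => ?_, mul_zero]
      by_cases hl : l = 1
      · rw [h.classInner_Del (by simp) t2.isClassFunction, hl]
        simp [classInner]
      · rw [← h1 ⟨l, hl⟩, ← σ.symm_apply_apply (Quotient.mk _ _), g8, zero_mul]
    have g10 : θ = pRegularPart 2 θ := by
      rw [← star_dl_one h.hM h.hB h.max t2]
      refine ext_sr h.hM h.max h.hB t2 (inSpan_star h.hM h.max h.hB (stable_dl h.max _)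
        t2.isClassFunction) fun v => ?_
      rw [sr_star h.hM h.max (stable_dl h.max _) t2.isClassFunction]
      by_cases hv : v = 1
      · rw [hv, show dl 2 P e 1 (1 : P) = 1 from dl_of_ef (w := 1) (ef_refl h.max P.one_mem),
          one_smul]
      rw [g9 v hv, smul_zero]
    have e1 := hev x g9 fun g hg => by
      change θ g = 0
      rw [g10, Ht.reg_of_dvd _ hg]
    have e0 := hx1 fun _ => 1
    simp only [mul_one, Finset.sum_const, Finset.card_fin, nsmul_eq_mul] at e0
    refine ⟨e0 ▸ e1, ?_⟩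
    rw [← hx1 (ca 2 B ψ)]
    have e2 : ∑ ξ ∈ irrFin B, x ξ * ca 2 B ψ ξ = 2 ^ blockDefect 2 B * x ψ := by
      apply Int.cast_injective (α := ℂ)
      push_cast
      have e3 : classInner (pRegularPart 2 (ψ : G → ℂ)) θ = x ψ := by
        rw [Ht.classInner_reg_comm, ← g10, hθ, classInner_sum_right,
          Finset.sum_eq_single ψ (fun ξ _ hξ => by
            rw [classInner_smul_right, classInner_irr, if_neg hξ.symm, mul_zero])
            (fun h9 => absurd (mem_irrFin.2 hψ) h9), classInner_smul_right, classInner_irr,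
          if_pos rfl]
        simp
      rw [← e3, hθ, classInner_sum_right, Finset.mul_sum]
      refine Finset.sum_congr rfl fun ξ hξ => ?_
      rw [ca_cast Nat.prime_two ψ (mem_irrFin.1 hξ), classInner_smul_right]
      simp only [map_intCast, Nat.cast_ofNat]
      ring
    rw [e2]
    exact (Int.even_pow.2 ⟨even_two, hd⟩).mul_right _
  intro χ hχ
  exact (key χ hχ).2 ((key ψ hψ).1 hψ0)

end Cfsg.Lib.R16
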