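import Cfsg.Agent.R16.NineS

/-! Elementary abelian defect group of order 16 with the fusion pattern of `C₃ × C₃`. -/

set_option autoImplicit false

open Cfsg Cfsg.Lib.Char Cfsg.Lib.Block

namespace Cfsg.Lib.R16

universe u
variable {M : Ideal AlgInt} {P : Type u} [Group P]

theorem nine {b : BD 2 M P} {V W : Subgroup P} {v w r : P} (h : BD.Grid b V W v w r)
    (_he : ∀ x : P, x * x = 1) : ∀ χ ∈ b.B, blockHeight 2 b.B (χ : b.G → ℂ) = 0 := NineS.ht h

end Cfsg.Lib.R16
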