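import Cfsg.Agent.Block.BDAb

/-!
The integer lemma behind the fusion pattern `C₃ × C₃` on `C₂⁴`: all entries of the column are odd.
-/

set_option autoImplicit false

open Finset Cfsg.Lib.Block Cfsg.Lib.Block.QInt

namespace Cfsg.Lib.R16.NineS

variable {ι : Type*} [DecidableEq ι] {S H : Finset ι} {N N' : ι → ι → ℤ} {d : ι → ℤ} {a b : ι}

omit [DecidableEq ι] in
theorem nrm (h : Proj S N d) (s : ι → ℤ) (hs : ∀ a ∈ S, s a * s a = 1) :
    Proj S (fun a b => s a * s b * N a b) (fun a => s a * d a) := by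
  refine ⟨fun a b => by rw [h.symm, mul_comm (s a)], fun a ha b hb => ?_, fun a ha => ?_, ?_⟩
  · rw [mul_left_comm, ← h.sq a ha b hb, mul_sum]
    exact sum_congr rfl fun c hc => by linear_combination (s a * s b * N a c * N c b) * hs c hc
  · rw [mul_left_comm, ← h.fix a ha, mul_sum]
    exact sum_congr rfl fun c hc => by linear_combination (s a * N a c * d c) * hs c hc
  · rw [← h.tr]
    exact sum_congr rfl fun c hc => by linear_combination N c c * hs c hc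

theorem nn (n : ℤ) : 0 ≤ n * (n - 1) := by
  rcases le_or_gt n 0 with h8 | h8 <;> nlinarith

theorem ev (f : ι → ℤ) (H : Finset ι) : 2 ∣ ∑ c ∈ H, f c * f c - ∑ c ∈ H, f c := by
  rw [← sum_sub_distrib]
  exact dvd_sum fun c _ => by
    have := Int.even_mul_pred_self (f c)
    rw [show f c * f c - f c = f c * (f c - 1) by ring]
    exact this.two_dvd

/-- The normalised shape. -/
structure Sh (S H : Finset ι) (d : ι → ℤ) (a b : ι) : Prop where
  sum : ∀ f : ι → ℤ, ∑ c ∈ S, f c = f a + f b + ∑ c ∈ H, f c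
  ha : a ∈ S
  hb : b ∈ S
  sub : ∀ c ∈ H, c ∈ S
  da : d a = 2
  db : d b = 2
  dH : ∀ c ∈ H, d c = 1
  card : H.card = 8

omit [DecidableEq ι] in
theorem Sh.symm (s : Sh S H d a b) : Sh S H d b a :=
  ⟨fun f => by rw [s.sum, add_comm (f a)], s.hb, s.ha, s.sub, s.db, s.da, s.dH, s.card⟩

omit [DecidableEq ι] in
theorem Sh.eqs (s : Sh S H d a b) (h : Proj S N d) {x : ι} (hx : x ∈ S) :
    N x a * N x a + N x b * N x b + ∑ c ∈ H, N x c * N x c = 4 * N x x ∧
      2 * N x a + 2 * N x b + ∑ c ∈ H, N x c = 4 * d x := by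
  have h1 := h.sq x hx x hx
  have h2 := h.fix x hx
  rw [s.sum] at h1 h2
  simp only [h.symm _ x] at h1
  rw [s.da, s.db, sum_congr rfl fun c hc => by rw [s.dH c hc, mul_one]] at h2
  exact ⟨h1, by linarith⟩

omit [DecidableEq ι] in
theorem Sh.two_le (s : Sh S H d a b) (h : Proj S N d) : 2 ≤ N a a := by
  obtain ⟨h1, h2⟩ := s.eqs h s.ha
  have h3 : 0 ≤ ∑ c ∈ H, N a c * (N a c - 1) := sum_nonneg fun c _ => nn _
  simp only [mul_sub, sum_sub_distrib, mul_one] at h3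
  rw [s.da] at h2
  nlinarith [sq_nonneg (N a b - 1), sq_nonneg (N a a - 1)]

theorem Sh.row (s : Sh S H d a b) (h : Proj S N d) (h2 : N a a = 2) :
    (N a b = 2 ∧ ∀ c ∈ H, N a c = 0) ∨
      (N a b = 0 ∧ ∑ c ∈ H, N a c * N a c = 4 ∧ ∀ c ∈ H, N a c = 0 ∨ N a c = 1) := by
  obtain ⟨h3, h4⟩ := s.eqs h s.ha
  have h5 := ev (N a) H
  have h6 : 0 ≤ ∑ c ∈ H, N a c * (N a c - 1) := sum_nonneg fun c _ => nn _
  have h7 : 0 ≤ ∑ c ∈ H, N a c * N a c := sum_nonneg fun c _ => mul_self_nonneg _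
  have h8 : ∑ c ∈ H, N a c * (N a c - 1) = ∑ c ∈ H, N a c * N a c - ∑ c ∈ H, N a c := by
    simp only [mul_sub, sum_sub_distrib, mul_one]
  rw [s.da, h2] at h4
  rw [h2] at h3
  have h9 : N a b = 0 ∨ N a b = 1 ∨ N a b = 2 := by
    have : 0 ≤ N a b := by nlinarith
    have : N a b ≤ 2 := by nlinarith
    omega
  rcases h9 with e | e | e <;> rw [e] at h3 h4
  · refine Or.inr ⟨e, by linarith, fun c hc => ?_⟩
    have := (sum_eq_zero_iff_of_nonneg fun c _ => nn (N a c)).1 (by linarith) c hc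
    rcases mul_eq_zero.1 this with k | k
    exacts [Or.inl k, Or.inr (by linarith)]
  · omega
  · exact Or.inl ⟨e, fun c hc => mul_self_eq_zero.1
      ((sum_eq_zero_iff_of_nonneg fun c _ => mul_self_nonneg (N a c)).1 (by linarith) c hc)⟩

theorem Sh.zero (s : Sh S H d a b) (h : Proj S N d) (ha : N a a = 2) (hb : N b b = 2) :
    ∀ c ∈ H, N a c = 0 := by
  rcases s.row h ha with ⟨-, k⟩ | ⟨e, k4, k⟩
  · exact k
  rcases s.symm.row h hb with ⟨e', -⟩ | ⟨-, -, k'⟩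
  · rw [h.symm, e] at e'
    omega
  have h1 : ∀ c ∈ H, N c b = N a c := fun c hc => by
    obtain ⟨h3, h4⟩ := s.eqs h (s.sub c hc)
    have h5 := ev (N c) H
    rw [h.symm c a, h.symm c b] at h3 h4
    rw [h.symm c b]
    rcases k c hc with u | u <;> rcases k' c hc with v | v <;> rw [u, v] at h3 h4 ⊢ <;> omega
  have h2 := h.sq a s.ha b s.hb
  rw [s.sum, e, sum_congr rfl fun c hc => by rw [h1 c hc], k4] at h2
  omega

theorem Sh.false (s : Sh S H d a b) (h : Proj S N d) (h' : Proj S N' d)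
    (h1 : ∀ a ∈ S, 4 * N a a + 4 * N' a a < 16 + d a ^ 2)
    (hN : ∀ a ∈ S, ∀ b ∈ S, ∑ c ∈ S, N a c * N' c b = d a * d b) : False := by
  have a1 := s.two_le h
  have a2 := s.two_le h'
  have b1 := s.symm.two_le h
  have b2 := s.symm.two_le h'
  have a3 := h1 a s.ha
  have b3 := h1 b s.hb
  rw [s.da] at a3
  rw [s.db] at b3
  obtain ⟨c, hc⟩ : H.Nonempty := card_pos.1 (by rw [s.card]; omega)
  have k := hN a s.ha c (s.sub c hc)
  rw [s.sum, s.zero h' (by omega) (by omega) c hc, s.symm.zero h' (by omega) (by omega) c hc,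
    sum_eq_zero fun x hx => by rw [s.zero h (by omega) (by omega) x hx, zero_mul],
    s.da, s.dH c hc] at k
  omega

theorem grid_odd (h : Proj S N d) (h' : Proj S N' d) (hd : ∑ a ∈ S, d a ^ 2 = 16)
    (h0 : ∀ a ∈ S, d a ≠ 0) (hS : 8 ≤ S.card)
    (h1 : ∀ a ∈ S, 4 * N a a + 4 * N' a a < 16 + d a ^ 2)
    (hN : ∀ a ∈ S, ∀ b ∈ S, ∑ c ∈ S, N a c * N' c b = d a * d b) : ∀ a ∈ S, Odd (d a) := by
  by_cases h11 : 11 ≤ S.card
  · intro a ha
    have := sq_eq_one_of_proj h h' hd h0 h11 h1 a ha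
    exact (Int.odd_pow' two_ne_zero).1 (this ▸ odd_one)
  by_contra k
  push Not at k
  obtain ⟨a, ha, hao⟩ := k
  set E := S.filter fun c => ¬ Odd (d c) with hE
  set H := S.filter fun c => Odd (d c) with hH
  have s1 : ∀ f : ι → ℤ, ∑ c ∈ S, f c = ∑ c ∈ H, f c + ∑ c ∈ E, f c := fun f =>
    (sum_filter_add_sum_filter_not S _ f).symm
  have c1 : H.card + E.card = S.card := card_filter_add_card_filter_not _
  have e1 : ∀ c ∈ E, 0 ≤ d c ^ 2 - 4 ∧ (d c ^ 2 - 4 = 0 ∨ 12 ≤ d c ^ 2 - 4) := fun c hc => by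
    obtain ⟨hc, o⟩ := mem_filter.1 hc
    obtain ⟨t, ht⟩ := Int.not_odd_iff_even.1 o
    have := h0 c hc
    rw [ht] at this ⊢
    rcases (by omega : t = 1 ∨ t = -1 ∨ 2 ≤ t ∨ t ≤ -2) with rfl | rfl | u | u
    · norm_num
    · norm_num
    · exact ⟨by nlinarith, Or.inr (by nlinarith)⟩
    · exact ⟨by nlinarith, Or.inr (by nlinarith)⟩
  have e2 : ∀ c ∈ H, 0 ≤ d c ^ 2 - 1 ∧ 8 ∣ d c ^ 2 - 1 := fun c hc => by
    obtain ⟨hc, t, ht⟩ := mem_filter.1 hc
    obtain ⟨r, hr⟩ := Int.even_mul_succ_self t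
    rw [ht]
    exact ⟨by nlinarith [nn (-t)], r, by linear_combination 4 * hr⟩
  have t1 : ∑ c ∈ H, (d c ^ 2 - 1) + ∑ c ∈ E, (d c ^ 2 - 4) + (H.card : ℤ) + 4 * (E.card : ℤ) = 16 := by
    rw [← hd, s1]
    simp only [sum_sub_distrib, sum_const, nsmul_eq_mul]
    ring
  have p1 := sum_nonneg fun c hc => (e1 c hc).1
  have p2 := sum_nonneg fun c hc => (e2 c hc).1
  have p3 := dvd_sum fun c hc => (e2 c hc).2
  have p4 : 0 < E.card := card_pos.2 ⟨a, mem_filter.2 ⟨ha, hao⟩⟩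
  have p5 : ∀ c ∈ E, d c ^ 2 - 4 = 0 := fun c hc => (e1 c hc).2.resolve_right fun u => by
    have := single_le_sum (fun c hc => (e1 c hc).1) hc
    omega
  rw [sum_eq_zero p5] at t1
  have p6 : E.card = 2 ∧ H.card = 8 ∧ ∑ c ∈ H, (d c ^ 2 - 1) = 0 := by omega
  obtain ⟨x, y, hxy, hE2⟩ := card_eq_two.1 p6.1
  have hx : x ∈ E := by rw [hE2]; simp
  have hy : y ∈ E := by rw [hE2]; simp
  have p7 := (sum_eq_zero_iff_of_nonneg fun c hc => (e2 c hc).1).1 p6.2.2
  have hs : ∀ c ∈ S, (d c).sign * (d c).sign = 1 := fun c hc => by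
    rcases lt_or_gt_of_ne (h0 c hc) with u | u
    · rw [Int.sign_eq_neg_one_of_neg u]; rfl
    · rw [Int.sign_eq_one_of_pos u]; rfl
  have ab : ∀ c (n : ℤ), 0 ≤ n → d c ^ 2 - n ^ 2 = 0 → (d c).sign * d c = n := fun c n hn u => by
    rw [Int.sign_mul_self_eq_abs, ← abs_of_nonneg hn]
    exact sq_eq_sq_iff_abs_eq_abs _ _ |>.1 (by linarith)
  refine Sh.false (H := H) (a := x) (b := y) ⟨fun f => by rw [s1, hE2, sum_pair hxy, add_comm],
    (mem_filter.1 hx).1, (mem_filter.1 hy).1, fun c hc => (mem_filter.1 hc).1,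
    ab x 2 (by norm_num) (p5 x hx), ab y 2 (by norm_num) (p5 y hy),
    fun c hc => ab c 1 (by norm_num) (by simpa using p7 c hc), p6.2.1⟩
    (nrm h _ hs) (nrm h' _ hs) (fun c hc => ?_) fun c hc e he => ?_
  · have := h1 c hc
    have u := hs c hc
    rw [mul_pow, pow_two (d c).sign, u]
    linarith
  · rw [mul_mul_mul_comm, ← hN c hc e he, mul_sum]
    exact sum_congr rfl fun z hz => by
      linear_combination ((d c).sign * (d e).sign * N c z * N' z e) * hs z hz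

open Cfsg Cfsg.Lib.Char Cfsg.Lib.Block.BD Subgroup in
/-- All characters have height zero. -/
theorem ht {M : Ideal AlgInt} {P : Type*} [Group P] {b : BD 2 M P} {V W : Subgroup P}
    {v w r : P} (h : BD.Grid b V W v w r) :
    ∀ χ ∈ b.B, blockHeight 2 b.B (χ : b.G → ℂ) = 0 := by
  classical
  have := b.finite
  have := Fintype.ofFinite P
  obtain ⟨N, hN⟩ := exists_int_mat h.st h.gen
  obtain ⟨N', hN'⟩ := exists_int_mat h.symm.st h.symm.gen
  obtain ⟨d, h0, hd⟩ := exists_int_mat_dl (l := b.dlt r) (mem_center_iff.2 fun _ => h.comm _ _) h.sq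
    h.rr (fun _ hv => if_pos hv) fun _ hv => if_neg hv
  simp only [h.card, Nat.cast_ofNat] at hd
  have h1 : ∀ x, b.ef 1 x ↔ x = 1 := fun x => ⟨ef.eq_one, fun e => e ▸ b.ef_refl 1⟩
  have h2 : (1 : P → ℂ) = b.dlt 1 + b.dlt v + b.dlt w + b.dlt r := funext fun x => by
    have := h.disj x
    have := V.one_mem
    have := W.one_mem
    by_cases h1 : x ∈ V <;> by_cases h2 : x ∈ W <;> by_cases h3 : x = 1 <;>
      simp_all [dlt, h.ev, h.ew, h.er]
  have h3 : ∀ χ ∈ irrFin b.B, ∀ ψ ∈ irrFin b.B, bf 2 b.B (rE 2 b.B χ) (rE 2 b.B ψ) =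
      16 * (if χ = ψ then 1 else 0) - 4 * N χ ψ - 4 * N' χ ψ + d χ * d ψ := fun χ hχ ψ hψ => by
    have h4 := mat_dl_one (l := b.dlt 1) (if_pos (b.ef_refl 1))
      (fun v hv => if_neg (by rwa [h1])) (mem_irrFin.1 hχ) (mem_irrFin.1 hψ)
    have h5 := mat_one (mem_irrFin.1 hχ) ψ
    have h6 := hN χ ψ
    have h7 := hN' χ ψ
    rw [h.card] at h4
    rw [h.cpl_eq] at h6
    rw [h.symm.cpl_eq] at h7
    rw [h2] at h5
    simp only [mat_add, mat_smul] at h5 h6 h7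
    apply Int.cast_injective (α := ℂ)
    push_cast at h4 ⊢
    split_ifs at h5 ⊢ <;> linear_combination -h4 + 16 * h5 - 4 * h6 - 4 * h7 + hd χ ψ
  have h4 : b.k = b.l + 7 := by
    have h5 := congrArg (Rat.cast (K := ℂ)) (k_eq_sum (b := b))
    have h6 : ∑ x, (1 : P → ℂ) x * b.wt x = b.l + 7 := by
      simp only [h2, Pi.add_apply, add_mul, Finset.sum_add_distrib, sum_dlt_wt, rk_one, h.rv,
        h.rw, h.rr]
      push_cast
      ring
    simp only [Pi.one_apply, one_mul] at h6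
    push_cast at h5
    exact_mod_cast h5.trans h6
  have h5 : 0 < b.l := blockRank_pos Nat.prime_two (isPBlock_nonempty b.hM b.hB)
  suffices k : ∀ χ ∈ irrFin b.B, Odd (d χ) by
    intro χ hχ
    by_contra u
    have u1 := (dvd_bf_self_iff b.hM b.hB _).2 ((dvd_dg_rE_iff b.hM hχ).2 u)
    rw [h3 χ (mem_irrFin.2 hχ) χ (mem_irrFin.2 hχ), if_pos rfl] at u1
    obtain ⟨t, ht⟩ := (k χ (mem_irrFin.2 hχ)).mul (k χ (mem_irrFin.2 hχ))
    rw [ht] at u1
    push_cast at u1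
    omega
  refine grid_odd (h.proj hN h0 hd) (h.symm.proj hN' h0 hd) ?_
    (fun χ hχ => h0 χ (mem_irrFin.1 hχ)) (by rw [card_irrFin]; exact (by omega : 8 ≤ b.k))
    (fun χ hχ => ?_) fun χ _ ψ _ => ?_
  · have := congrArg (16 * ·) (mat_trace (st_dlt (b := b) r))
    simp only [Finset.mul_sum, hd] at this
    rw [← Finset.mul_sum, sum_dlt_wt, h.rr] at this
    simp only [pow_two]
    exact_mod_cast this
  · have := bf_self_pos (by simpa using Tame.rE_ne_zero (p := 2) (mem_irrFin.1 hχ) (s := 1) rfl)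
    rw [h3 χ hχ χ hχ, if_pos rfl] at this
    linarith
  · have := mat_mul h.st h.symm.st χ ψ
    rw [show cpl W * cpl V = (16 : ℂ) • b.dlt r from funext fun x => by
      by_cases h1 : x ∈ V <;> by_cases h2 : x ∈ W <;> norm_num [cpl, dlt, h.er, h1, h2],
      mat_smul, hd] at this
    simp only [hN, hN'] at this
    exact_mod_cast this

end Cfsg.Lib.R16.NineS
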