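import Cfsg.Agent.Block.GenDec
import Cfsg.Agent.Block.FirstMain
import Cfsg.Agent.Block.BDAb

/-!
A weighted bound for major subsections of a `2`-block with a character of positive height.
-/

set_option autoImplicit false

open scoped ComplexConjugate MonoidAlgebra
open Cfsg Cfsg.Lib.Char Cfsg.Lib.Block Cfsg.Lib.Block.Pair Cfsg.Lib.Block.Cyc
open Subgroup (centralizer normalizer zpowers)

namespace Cfsg.Lib.R16

theorem avg_succ {G : Type*} [Group G] [Fintype G] {M : Ideal AlgInt}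
    (hM : IsPModular 2 M) {B : Set (IrrCharacter G)} (hB : IsPBlock M B) {D : Subgroup G}
    {e : (kM M)[G]} (h : IsMax 2 ⊤ ⊤ (eB M B) D e) {χ : IrrCharacter G} (hχ : χ ∈ B)
    (h0 : blockHeight 2 B (χ : G → ℂ) ≠ 0) {n : ℕ}
    {ζ : ℂ} (hζ : IsPrimitiveRoot ζ (2 ^ (n + 1))) (z : D) (hz : (z : G) ^ 2 ^ (n + 1) = 1)
    (hc : D ≤ centralizer ({(z : G)} : Set G)) :
    ((U 2 n).card : ℝ) * 2 ^ (blockHeight 2 B (χ : G → ℂ) + 1) ≤
      ∑ k ∈ U 2 n, (2 : ℝ) ^ blockDefect 2 B * (Star.ctr 2 M D e χ χ (z ^ k)).re := by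
  have hp : Nat.Prime 2 := Nat.prime_two
  have := Fintype.ofFinite (centralizer ({(z : G)} : Set G))
  have hu := isMax_pElt h z.2
  have hind := isInducedBlock_subBlk hM hB h z.2
  have hd := blockDefect_subBlk_of_le hM hB h z.2 hc
  obtain ⟨a, ha⟩ := exists_isParts hp rfl hζ hz (subBlk 2 M D e z) χ.2.isGeneralizedCharacter
  have h1 : 2 * (2 : ℤ) ^ (blockHeight 2 B (χ : G → ℂ) + 1) ≤ avgB a a := by
    rw [avgB_two]
    exact mul_le_mul_of_nonneg_left (Int.le_of_dvd (ha.avgQ_pos hM rfl hζ hu hind hd hχ)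
      (ha.pow_succ_dvd_avgQ hM rfl hζ hu hind hd hχ h0)) (by norm_num)
  have h2 := two_mul_sum_U_inner hζ ha ha
  have h3 : ∀ k ∈ U 2 n, classInner (subRes 2 _ ((z : G) ^ k) (subBlk 2 M D e z) χ)
      (subRes 2 _ ((z : G) ^ k) (subBlk 2 M D e z) χ) = Star.ctr 2 M D e χ χ (z ^ k) := by
    intro k hk
    have h4 := cent_pow_eq hp rfl hu (not_dvd_of_mem_U hk)
    have h5 : zpowers ((z : G) ^ k) = zpowers (z : G) := by
      obtain ⟨j, hj⟩ := hu
      refine le_antisymm (Subgroup.zpowers_le.2 (Subgroup.pow_mem _ (Subgroup.mem_zpowers _) k))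
        (Subgroup.zpowers_le.2 (mem_zpowers_pow_iff.2 ?_))
      rw [hj]
      exact Nat.Coprime.pow_right _ ((Nat.Prime.coprime_iff_not_dvd hp).2
        (not_dvd_of_mem_U hk)).symm
    have key : ∀ (K K' : Subgroup G) [Fintype K] [Fintype K'] (f f' : (kM M)[G]), K = K' → f = f' →
        classInner (subRes 2 K ((z : G) ^ k) (blkOf M K f) χ)
          (subRes 2 K ((z : G) ^ k) (blkOf M K f) χ) =
        classInner (subRes 2 K' ((z : G) ^ k) (blkOf M K' f') χ)
          (subRes 2 K' ((z : G) ^ k) (blkOf M K' f') χ) := by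
      rintro K K' i i' f f' rfl rfl
      rw [Subsingleton.elim i i']
    have := Fintype.ofFinite (centralizer ({((z ^ k : D) : G)} : Set G))
    rw [Star.ctr_eq hM h χ.2.isClassFunction χ.2.isClassFunction]
    exact key _ _ _ _ h4 (by rw [← h5]; rfl)
  rw [Finset.sum_congr rfl fun k hk => by rw [h3 k hk, hd]] at h2
  have h6 := congrArg Complex.re h2
  have h7 : ((U 2 n).card : ℝ) = (2 : ℝ) ^ n := by
    have := congrArg (Int.cast : ℤ → ℝ) (card_U hp.ne_zero n)
    push_cast at this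
    linarith
  have h8 : (2 * (2 : ℝ) ^ (blockHeight 2 B (χ : G → ℂ) + 1)) ≤ avgB a a := by
    exact_mod_cast h1
  simp only [← Nat.cast_pow, Complex.mul_re, Complex.re_sum, Complex.natCast_re,
    Complex.natCast_im, Complex.intCast_re, Complex.intCast_im, zero_mul, sub_zero, mul_zero,
    Complex.re_ofNat, Complex.im_ofNat] at h6
  push_cast at h6
  have h9 : (0 : ℝ) ≤ (2 : ℝ) ^ n := by positivity
  rw [h7]
  nlinarith [mul_le_mul_of_nonneg_left h8 h9]

open Classical in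
/-- Weighted count of the central elements of a defect group. -/
theorem wt {G : Type*} [Group G] [Fintype G] {M : Ideal AlgInt}
    (hM : IsPModular 2 M) {B : Set (IrrCharacter G)} (hB : IsPBlock M B) {D : Subgroup G}
    [Fintype D] {e : (kM M)[G]} (h : IsMax 2 ⊤ ⊤ (eB M B) D e) {χ : IrrCharacter G} (hχ : χ ∈ B)
    (h0 : blockHeight 2 B (χ : G → ℂ) ≠ 0) (c : D → ℝ) (hc0 : ∀ z, 0 ≤ c z)
    (hck : ∀ z ∈ Subgroup.center D, ∀ k, ¬ 2 ∣ k → c (z ^ k) = c z)
    (hc : ∀ w : D, ∑ z ∈ Finset.univ.filter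
      (fun z : D => z ∈ Subgroup.center D ∧ EF 2 D e z w), c z ≤ 1) :
    (2 : ℝ) ^ (blockHeight 2 B (χ : G → ℂ) + 1) *
      ∑ z ∈ Finset.univ.filter (fun z : D => z ∈ Subgroup.center D), c z ≤ Nat.card D := by
  have hp : Nat.Prime 2 := Nat.prime_two
  have := charP_kM hM
  have hBD := isMax_isDefectGroup hM hB h
  have hDd := card_defect hM hB hBD
  set d := blockDefect 2 B with hd
  have hcen : ∀ z : D, z ∈ Subgroup.center D → D ≤ centralizer ({(z : G)} : Set G) :=
    fun z hz x hx => Subgroup.mem_centralizer_singleton_iff.2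
      (congrArg Subtype.val (Subgroup.mem_center_iff.1 hz ⟨x, hx⟩))
  set Z := Finset.univ.filter fun z : D => z ∈ Subgroup.center D with hZ
  set r : D → ℝ := fun w => (Star.ctr 2 M D e χ χ w).re with hr
  have hr0 : ∀ w, 0 ≤ r w := Star.ctr_self_re_nonneg hM h χ.2.isClassFunction
  have hn0 : ∀ w : D, (0 : ℝ) < Star.nF 2 D e w := fun w => by
    exact_mod_cast Star.nF_pos h w.2
  have h1 : ∑ w, r w / Star.nF 2 D e w = 1 := by
    have h2 := congrArg Complex.re (Star.classInner_eq_sum_ctr hM h hB (inSpan_irr hχ) χ)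
    rw [χ.2.classInner_self, Complex.re_sum] at h2
    rw [← Complex.one_re, h2]
    exact Finset.sum_congr (by congr) fun w _ => by rw [Complex.div_natCast_re]
  have h2 : ∑ z ∈ Z, c z * r z ≤ 1 := by
    calc ∑ z ∈ Z, c z * r z = ∑ z ∈ Z, ∑ w ∈ Finset.univ.filter fun w : D => EF 2 D e z w,
          c z * (r w / Star.nF 2 D e w) := Finset.sum_congr rfl fun z _ => by
            rw [← Finset.mul_sum,
              Finset.sum_congr rfl (g := fun _ => r z / Star.nF 2 D e z) fun w hw => by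
              have h3 := (Finset.mem_filter.1 hw).2
              simp only [hr, Star.nF_congr h h3, Star.stable_ctr hM h χ χ z w h3],
              Finset.sum_const, nsmul_eq_mul, ← Fintype.card_subtype, ← Nat.card_eq_fintype_card]
            congr 1
            exact (mul_div_cancel₀ _ (hn0 z).ne').symm
      _ = ∑ w : D, ∑ z ∈ Finset.univ.filter
            (fun z : D => z ∈ Subgroup.center D ∧ EF 2 D e z w),
          c z * (r w / Star.nF 2 D e w) := Finset.sum_comm' (by simp [hZ, and_comm])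
      _ ≤ ∑ w : D, r w / Star.nF 2 D e w := Finset.sum_le_sum fun w _ => by
            rw [← Finset.sum_mul]
            exact mul_le_of_le_one_left (div_nonneg (hr0 w) (hn0 w).le) (hc w)
      _ = 1 := h1
  have hζ := Complex.isPrimitiveRoot_exp (2 ^ (d + 1)) (pow_ne_zero _ hp.ne_zero)
  have h3 := Finset.sum_le_sum fun z (hz : z ∈ Z) => mul_le_mul_of_nonneg_left
    (avg_succ hM hB h hχ h0 hζ z (by
    rw [pow_succ, ← hDd, pow_mul, ← Subgroup.coe_pow, pow_card_eq_one', Subgroup.coe_one, one_pow])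
    (hcen z (Finset.mem_filter.1 hz).2)) (hc0 z)
  have h4 : ∀ k ∈ U 2 d, ∑ z ∈ Z, c z * r (z ^ k) = ∑ z ∈ Z, c z * r z := fun k hk => by
    have h5 : (Nat.card D).Coprime k := hDd ▸ Nat.Coprime.pow_left _
      ((Nat.Prime.coprime_iff_not_dvd hp).2 (not_dvd_of_mem_U hk))
    refine Finset.sum_bij (fun z _ => z ^ k) (fun z hz => ?_)
      (fun x _ y _ hxy => (powCoprime h5).injective hxy) (fun y hy => ?_) fun z hz => ?_
    · exact Finset.mem_filter.2 ⟨Finset.mem_univ _, pow_mem (Finset.mem_filter.1 hz).2 k⟩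
    · exact ⟨(powCoprime h5).symm y, Finset.mem_filter.2 ⟨Finset.mem_univ _,
        zpow_mem (Finset.mem_filter.1 hy).2 _⟩, (powCoprime h5).apply_symm_apply y⟩
    · rw [hck z (Finset.mem_filter.1 hz).2 k (not_dvd_of_mem_U hk)]
  have h5 : (0 : ℝ) < (U 2 d).card := by
    exact_mod_cast Finset.card_pos.2 ⟨1, one_mem_U hp d⟩
  have h6 : ∑ z ∈ Z, c z * ∑ k ∈ U 2 d, (2 : ℝ) ^ d * r (z ^ k) =
      (U 2 d).card * ((2 : ℝ) ^ d * ∑ z ∈ Z, c z * r z) := by
    simp only [Finset.mul_sum (U 2 d)]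
    rw [Finset.sum_comm, Finset.sum_congr rfl (g := fun _ => (2 : ℝ) ^ d * ∑ z ∈ Z, c z * r z)
      fun k hk => ?_, Finset.sum_const, nsmul_eq_mul]
    rw [← h4 k hk, Finset.mul_sum]
    exact Finset.sum_congr rfl fun z _ => by ring
  have h7 : ∑ z ∈ Z, c z * (((U 2 d).card : ℝ) * 2 ^ (blockHeight 2 B (χ : G → ℂ) + 1)) =
      (U 2 d).card * ((2 : ℝ) ^ (blockHeight 2 B (χ : G → ℂ) + 1) * ∑ z ∈ Z, c z) := by
    rw [← Finset.sum_mul]; ring
  have h8 := le_of_mul_le_mul_left (h7.symm.le.trans (h3.trans h6.le)) h5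
  rw [hDd]
  push_cast
  exact h8.trans (mul_le_of_le_one_right (by positivity) h2)

end Cfsg.Lib.R16
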